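import Cfsg.Agent.Lib.HHExponent
import Cfsg.Agent.PGroup.Critical
import Cfsg.Agent.Coprime.Action
import Cfsg.Agent.S3734

/-!
# Exceptional elements: their `p ^ (e - 1)`-th powers in a Sylow subgroup commute

`G` is `p`-soluble with `O_p(G) = 1`, faithfully represented in characteristic `p`, and no `p`-element
`x` of the `p`-subgroup `S` has a free summand of length `p ^ e`.  Then the elements `x ^ p ^ (e - 1)`,
`x ∈ S`, commute with each other.
-/

set_option autoImplicit false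

namespace Cfsg.Agent.HHTwo

open scoped commutatorElement
open Subgroup Cfsg

variable {G : Type*} [Group G] [Finite G] {p : ℕ} [Fact p.Prime] {F : Type*} [Field F] [CharP F p]
  {V : Type*} [AddCommGroup V] [Module F V] [FiniteDimensional F V] {ρ : G →* Module.End F V}

/-- The element `x` has no free summand of length `p ^ e`. -/
def IsExc (p e : ℕ) (ρ : G →* Module.End F V) (x : G) : Prop :=
  x ^ p ^ e = 1 ∧ (ρ x - 1) ^ (p ^ e - 1) = 0

/-- An exceptional element centralizes the abelian `p'`-subgroups it normalizes, up to the exponent. -/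
theorem centralizes_abelian (hinj : Function.Injective ρ) {e : ℕ} (he : 1 ≤ e) {x : G}
    (hx : IsExc p e ρ x) {R : Subgroup G} (hR : IsMulCommutative R) (hcop : (Nat.card R).Coprime p)
    (hxR : x ∈ normalizer (R : Set G)) : x ^ p ^ (e - 1) ∈ centralizer (R : Set G) := by
  by_contra hτ
  obtain ⟨q, Q, -, -, hQR, -, hQne, hpair⟩ := HH.exists_isPair hcop he hx.1 hxR hτ
  obtain ⟨y, hy, hy1⟩ := (Subgroup.bot_or_exists_ne_one Q).resolve_left hQne
  rcases HH.theoremB ρ hpair ⟨y, hy, fun h => hy1 (hinj (h.trans (map_one ρ).symm))⟩ hx.2 with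
    h | ⟨n₀, -, -, -, -, hnc, -⟩
  · have := Nat.one_le_pow e p (Fact.out : p.Prime).pos
    omega
  · exact hnc ⟨⟨fun a b => Subtype.ext (congrArg Subtype.val
      (hR.is_comm.comm (⟨a, hQR a.2⟩ : R) ⟨b, hQR b.2⟩) :)⟩⟩

/-- On a class two `p'`-subgroup the commutators of `τ` with an elementary abelian group vanish. -/
theorem commutator_mem_centralizer (hinj : Function.Injective ρ) {e : ℕ} (he : 1 ≤ e) {x : G}
    (hx : IsExc p e ρ x) {C B : Subgroup G} (hCcop : (Nat.card C).Coprime p)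
    (hcls : ∀ a ∈ C, ∀ b ∈ C, ∀ c ∈ C, Commute ⁅a, b⁆ c)
    (hBcomm : IsMulCommutative B) (hBexp : ∀ b ∈ B, b ^ p = 1) (hxC : x ∈ normalizer (C : Set G))
    (hBC : B ≤ normalizer (C : Set G)) (hxB : x ∈ normalizer (B : Set G))
    (hBZ : ∀ b ∈ B, ∀ z ∈ C, (∀ c ∈ C, Commute z c) → Commute b z) {b : G} (hb : b ∈ B) :
    ⁅x ^ p ^ (e - 1), b⁆ ∈ centralizer (C : Set G) := by
  have hp : p.Prime := Fact.out
  set τ := x ^ p ^ (e - 1) with hτdef
  have hcomm : ∀ a ∈ B, ∀ a' ∈ B, a * a' = a' * a := fun a ha a' ha' =>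
    congrArg Subtype.val (hBcomm.is_comm.comm (⟨a, ha⟩ : B) ⟨a', ha'⟩)
  have hτB : τ ∈ normalizer (B : Set G) := pow_mem hxB _
  have hτp : τ ^ p = 1 := by
    rw [hτdef, ← pow_mul, ← pow_succ, Nat.sub_add_cancel he, hx.1]
  set c := ⁅τ, b⁆ with hc
  have hcB : c ∈ B := by
    rw [hc, commutatorElement_def]
    exact mul_mem ((mem_normalizer_iff.1 hτB b).1 hb) (inv_mem hb)
  have hBp : IsPGroup p B := fun a => ⟨1, Subtype.ext (by simpa using hBexp a a.2)⟩
  have hBcop : (Nat.card B).Coprime (Nat.card C) := by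
    obtain ⟨k, hk⟩ := IsPGroup.iff_card.1 hBp
    rw [hk]
    exact hCcop.symm.pow_left k
  have hgen := (S3734.result B C hBcomm hBC hBcop).1
  suffices h : ∀ H ∈ {H : Subgroup G | H ≤ B ∧ ∃ a ∈ B, H ⊔ zpowers a = B},
      C ⊓ centralizer (H : Set G) ≤ centralizer ({c} : Set G) by
    refine mem_centralizer_iff.2 fun k hk => ?_
    exact mem_centralizer_singleton_iff.1 ((iSup₂_le h) (hgen.ge hk))
  rintro H ⟨hHB, a, ha, hHa⟩
  have hBel : ∀ g ∈ B, ∃ h ∈ H, ∃ j : ℕ, g = h * a ^ j := by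
    intro g hg
    have hg' : g ∈ ((H ⊔ zpowers a : Subgroup G) : Set G) := hHa.symm ▸ hg
    rw [coe_mul_of_right_le_normalizer_left H (zpowers a) (zpowers_le.2 (mem_normalizer_iff.2 fun h =>
      ⟨fun hh => by rwa [hcomm a ha h (hHB hh), mul_inv_cancel_right], fun hh => by
        have h' : a⁻¹ * (a * h * a⁻¹) * a ∈ H := by
          rwa [hcomm _ (inv_mem ha) _ (hHB hh), inv_mul_cancel_right]
        simpa [mul_assoc] using h'⟩))] at hg'
    obtain ⟨h, hh, z, hz, rfl⟩ := hg'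
    obtain ⟨j, rfl⟩ := mem_powers_iff_mem_zpowers.2 hz
    exact ⟨h, hh, j, rfl⟩
  by_cases hfix : ∀ h ∈ H, τ * h * τ⁻¹ ∈ H
  · -- `τ` fixes `H`, so it centralizes `B / H`
    have hcH : c ∈ H := by
      by_cases haH : a ∈ H
      · have : B = H := le_antisymm (hHa ▸ sup_le le_rfl (zpowers_le.2 haH)) hHB
        exact this ▸ hcB
      obtain ⟨h₁, hh₁, j, hj⟩ := hBel _ ((mem_normalizer_iff.1 hτB a).1 ha)
      have hit : ∀ i : ℕ, ∃ h ∈ H, τ ^ i * a * (τ ^ i)⁻¹ = h * a ^ (j ^ i) := by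
        intro i
        induction i with
        | zero => exact ⟨1, one_mem _, by simp⟩
        | succ i ih =>
          obtain ⟨h, hh, hi⟩ := ih
          refine ⟨τ * h * τ⁻¹ * h₁ ^ (j ^ i), mul_mem (hfix h hh) (pow_mem hh₁ _), ?_⟩
          calc τ ^ (i + 1) * a * (τ ^ (i + 1))⁻¹ = τ * (τ ^ i * a * (τ ^ i)⁻¹) * τ⁻¹ := by
                rw [pow_succ']; group
            _ = τ * h * τ⁻¹ * (τ * a * τ⁻¹) ^ (j ^ i) := by rw [hi, conj_pow]; group
            _ = _ := by
              rw [hj, (show Commute h₁ (a ^ j) from hcomm _ (hHB hh₁) _ (pow_mem ha j)).mul_pow, ← pow_mul,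
                pow_succ']
              simp only [mul_assoc]
      obtain ⟨h, hh, hp'⟩ := hit p
      rw [hτp, inv_one, one_mul, mul_one] at hp'
      have hjp : a ^ ((j ^ p : ℕ) - (1 : ℤ)) ∈ H := by
        rw [zpow_sub, zpow_natCast, zpow_one]
        have : a ^ (j ^ p) * a⁻¹ = h⁻¹ := by
          rw [eq_inv_iff_mul_eq_one, mul_assoc, ← hcomm h (hHB hh) a⁻¹ (inv_mem ha), ← mul_assoc,
            hcomm _ (pow_mem ha _) h (hHB hh), ← hp', mul_inv_cancel]
        rw [this]; exact inv_mem hh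
      have hdvd : (p : ℤ) ∣ ((j ^ p : ℕ) : ℤ) - 1 := by
        by_contra hnd
        have hco : IsCoprime ((p : ℤ)) (((j ^ p : ℕ) : ℤ) - 1) :=
          (Nat.prime_iff_prime_int.1 hp).coprime_iff_not_dvd.2 hnd
        obtain ⟨u, v, huv⟩ := hco
        refine haH ?_
        have : a = (a ^ (((j ^ p : ℕ) : ℤ) - 1)) ^ v := by
          rw [← zpow_mul, mul_comm]
          conv_lhs => rw [← zpow_one a, ← huv, zpow_add, mul_comm u, zpow_mul, zpow_natCast, hBexp a ha, one_zpow, one_mul]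
        rw [this]; exact zpow_mem hjp v
      have hj1 : (j : ZMod p) = 1 := by
        have := (ZMod.intCast_zmod_eq_zero_iff_dvd _ p).2 hdvd
        push_cast at this
        rwa [ZMod.pow_card, sub_eq_zero] at this
      obtain ⟨m, hm⟩ : ∃ m : ℤ, (j : ℤ) - 1 = p * m :=
        (ZMod.intCast_zmod_eq_zero_iff_dvd _ p).1 (by push_cast; rw [hj1, sub_self])
      have hja : a ^ j = a := by
        rw [← zpow_natCast, show (j : ℤ) = p * m + 1 by omega, zpow_add, zpow_mul, zpow_natCast, hBexp a ha,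
          one_zpow, one_mul, zpow_one]
      obtain ⟨h₀, hh₀, i, rfl⟩ := hBel b hb
      have : c = τ * h₀ * τ⁻¹ * h₁ ^ i * h₀⁻¹ := by
        rw [hc, commutatorElement_def]
        calc τ * (h₀ * a ^ i) * τ⁻¹ * (h₀ * a ^ i)⁻¹ = τ * h₀ * τ⁻¹ * (τ * a * τ⁻¹) ^ i * (h₀ * a ^ i)⁻¹ := by
              rw [conj_pow]; group
          _ = τ * h₀ * τ⁻¹ * (h₁ ^ i * a ^ i) * (h₀ * a ^ i)⁻¹ := by
              rw [hj, hja, (show Commute h₁ a from hcomm _ (hHB hh₁) _ ha).mul_pow]
          _ = _ := by group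
      rw [this]
      exact mul_mem (mul_mem (hfix _ hh₀) (pow_mem hh₁ _)) (inv_mem hh₀)
    exact fun k hk => mem_centralizer_singleton_iff.2 (mem_centralizer_iff.1 hk.2 c hcH).symm
  -- otherwise `B` centralizes `C_C(H)`
  suffices hall : ∀ g ∈ B, ∀ k ∈ C ⊓ centralizer (H : Set G), g * k * g⁻¹ * k⁻¹ = 1 from
    fun k hk => mem_centralizer_singleton_iff.2
      (mul_inv_eq_iff_eq_mul.1 (mul_inv_eq_one.1 (hall c hcB k hk))).symm
  intro g hg k hk
  set u := g * k * g⁻¹ * k⁻¹ with hu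
  have hconjC : ∀ {y : G}, y ∈ B → ∀ {w}, w ∈ C ⊓ centralizer (H : Set G) →
      y * w * y⁻¹ ∈ C ⊓ centralizer (H : Set G) := by
    intro y hy w hw
    refine ⟨(mem_normalizer_iff.1 (hBC hy) w).1 hw.1, mem_centralizer_iff.2 fun h hh => ?_⟩
    have h1 := mem_centralizer_iff.1 hw.2 h hh
    have h2 := hcomm y hy h (hHB hh)
    calc h * (y * w * y⁻¹) = h * y * w * y⁻¹ := by group
      _ = y * h * w * y⁻¹ := by rw [h2]
      _ = y * (h * w) * y⁻¹ := by group
      _ = y * w * (h * y⁻¹) := by rw [h1]; group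
      _ = _ := by rw [← hcomm _ (inv_mem hy) h (hHB hh)]; group
  have huD : u ∈ C ⊓ centralizer (H : Set G) := mul_mem (hconjC hg hk) (inv_mem hk)
  -- translates
  have hpair : ∀ m : ℕ, Commute u (x ^ m * u * (x ^ m)⁻¹) := by
    intro m
    set xm := x ^ m with hxm
    by_cases hm : ∀ h ∈ H, xm * h * xm⁻¹ ∈ H
    · -- then `x ^ m = 1`
      by_cases hd : p ^ e ∣ m
      · obtain ⟨t, rfl⟩ := hd
        rw [hxm, pow_mul, hx.1, one_pow, inv_one, one_mul, mul_one]
      exfalso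
      refine hfix ?_
      have hstab : ∀ t : ℕ, ∀ h ∈ H, x ^ (m * t) * h * (x ^ (m * t))⁻¹ ∈ H := by
        intro t
        induction t with
        | zero => intro h hh; simpa using hh
        | succ t ih =>
          intro h hh
          rw [show x ^ (m * (t + 1)) * h * (x ^ (m * (t + 1)))⁻¹
            = x ^ (m * t) * (xm * h * xm⁻¹) * (x ^ (m * t))⁻¹ by
            rw [Nat.mul_succ, pow_add, hxm]; group]
          exact ih _ (hm h hh)
      have hlt : Nat.gcd m (p ^ e) < p ^ e := lt_of_le_of_ne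
        (Nat.le_of_dvd (pow_pos hp.pos e) (Nat.gcd_dvd_right _ _)) fun h => hd (h ▸ Nat.gcd_dvd_left _ _)
      obtain ⟨t, -, ht⟩ := Nat.exists_mul_mod_eq_gcd hlt
      obtain ⟨i, hi, hgcd⟩ := (Nat.dvd_prime_pow hp).1 (Nat.gcd_dvd_right m (p ^ e))
      have hie : i ≤ e - 1 := by
        have h3 : p ^ i < p ^ e := hgcd ▸ hlt
        have := (Nat.pow_lt_pow_iff_right hp.one_lt).1 h3
        omega
      have : τ = x ^ (m * (t * p ^ (e - 1 - i))) := by
        rw [← mul_assoc, pow_mul, ← Nat.div_add_mod (m * t) (p ^ e), ht, hgcd, pow_add, pow_mul, hx.1, one_pow,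
          one_mul, ← pow_mul, ← pow_add, show i + (e - 1 - i) = e - 1 by omega]
      rw [this]
      exact hstab _
    · -- then `B = H H_m`
      have hex : ∃ h₂ ∈ B, h₂ ∉ H ∧ ∃ h' ∈ H, h₂ = xm * h' * xm⁻¹ := by
        push_neg at hm
        obtain ⟨h', hh', hn⟩ := hm
        exact ⟨_, (mem_normalizer_iff.1 (pow_mem hxB m) h').1 (hHB hh'), hn, h', hh', rfl⟩
      obtain ⟨h₂, hh₂B, hh₂H, h', hh', hh₂⟩ := hex
      obtain ⟨h₃, hh₃, i, hi⟩ := hBel h₂ hh₂B
      have hpi : ¬ p ∣ i := by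
        rintro ⟨t, rfl⟩
        rw [pow_mul, hBexp a ha, one_pow, mul_one] at hi
        exact hh₂H (hi ▸ hh₃)
      -- write `g = h₀ h₁` with `h₁` in the translate
      obtain ⟨h₄, hh₄, s, hs⟩ := hBel g hg
      obtain ⟨t, ht⟩ : ∃ t : ℕ, (i * t) % p = s % p :=
        ⟨((s : ZMod p) * (i : ZMod p)⁻¹).val, by
          have hi0 : (i : ZMod p) ≠ 0 := fun h => hpi ((ZMod.natCast_eq_zero_iff _ p).1 h)
          refine (ZMod.natCast_eq_natCast_iff' _ _ p).1 ?_
          push_cast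
          rw [ZMod.natCast_zmod_val]
          field_simp⟩
      have has : a ^ s = a ^ (i * t) := by
        rw [pow_eq_pow_mod s (hBexp a ha), ← ht, ← pow_eq_pow_mod (i * t) (hBexp a ha)]
      set h₁ := h₂ ^ t with hh₁def
      have hg' : g = (h₄ * (h₃ ^ t)⁻¹) * h₁ := by
        rw [hh₁def, hi, (show Commute h₃ (a ^ i) from hcomm _ (hHB hh₃) _ (pow_mem ha i)).mul_pow, ← pow_mul,
          ← has, hs]
        group
      have hu1 : u = h₁ * k * h₁⁻¹ * k⁻¹ := by
        have h0H : h₄ * (h₃ ^ t)⁻¹ ∈ H := mul_mem hh₄ (inv_mem (pow_mem hh₃ t))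
        have hw := hconjC (y := h₁) (pow_mem hh₂B t) hk
        have h5 := mem_centralizer_iff.1 hw.2 _ h0H
        rw [hu, hg']
        calc h₄ * (h₃ ^ t)⁻¹ * h₁ * k * (h₄ * (h₃ ^ t)⁻¹ * h₁)⁻¹ * k⁻¹
            = (h₄ * (h₃ ^ t)⁻¹) * (h₁ * k * h₁⁻¹) * (h₄ * (h₃ ^ t)⁻¹)⁻¹ * k⁻¹ := by group
          _ = _ := by rw [h5]; group
      set v := xm * u * xm⁻¹ with hv
      have hvC : v ∈ C := (mem_normalizer_iff.1 (pow_mem hxC m) u).1 huD.1
      have hh₁v : h₁ * v * h₁⁻¹ = v := by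
        rw [hh₁def, hh₂, conj_pow, hv]
        have h6 := mem_centralizer_iff.1 huD.2 (h' ^ t) (pow_mem hh' t)
        calc xm * h' ^ t * xm⁻¹ * (xm * u * xm⁻¹) * (xm * h' ^ t * xm⁻¹)⁻¹
            = xm * (h' ^ t * u) * (h' ^ t)⁻¹ * xm⁻¹ := by group
          _ = _ := by rw [h6]; group
      set k' := h₁ * k * h₁⁻¹ with hk'
      have hk'C : k' ∈ C := (hconjC (pow_mem hh₂B t) hk).1
      set z := ⁅k, v⁆ with hz
      have hzC : z ∈ C := by
        rw [hz, commutatorElement_def]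
        exact mul_mem (mul_mem (mul_mem hk.1 hvC) (inv_mem hk.1)) (inv_mem hvC)
      have hzc : ∀ w ∈ C, Commute z w := fun w hw => hcls k hk.1 v hvC w hw
      have hk'v : ⁅k', v⁆ = z := by
        have h7 : ⁅k', v⁆ = h₁ * z * h₁⁻¹ := by
          conv_lhs => rw [hk', ← hh₁v]
          rw [hz, commutatorElement_def, commutatorElement_def]
          group
        rw [h7, (hBZ h₁ (pow_mem hh₂B t) z hzC hzc).eq, mul_inv_cancel_right]
      rw [hu1]
      show k' * k⁻¹ * v = v * (k' * k⁻¹)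
      have e1 : k⁻¹ * v * k = z⁻¹ * v := by
        have h8 : k⁻¹ * (z⁻¹ * k) = z⁻¹ := by rw [((hzc k hk.1).inv_left).eq, inv_mul_cancel_left]
        calc k⁻¹ * v * k = k⁻¹ * (z⁻¹ * k) * v := by rw [hz, commutatorElement_def]; group
          _ = _ := by rw [h8]
      calc k' * k⁻¹ * v = k' * (k⁻¹ * v * k) * k⁻¹ := by group
        _ = (k' * z⁻¹) * v * k⁻¹ := by rw [e1]; group
        _ = z⁻¹ * ⁅k', v⁆ * v * k' * k⁻¹ := by
            rw [← ((hzc k' hk'C).inv_left).eq, commutatorElement_def]; group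
        _ = _ := by rw [hk'v]; group
  set T := {w | ∃ i : ℕ, w = x ^ i * u * (x ^ i)⁻¹} with hT
  set R := Subgroup.closure T with hRdef
  have hRC : R ≤ C := (closure_le _).2 (by
    rintro _ ⟨i, rfl⟩
    exact (mem_normalizer_iff.1 (pow_mem hxC i) u).1 huD.1)
  have hTcomm : ∀ w ∈ T, ∀ w' ∈ T, w * w' = w' * w := by
    have key : ∀ i m : ℕ, Commute (x ^ i * u * (x ^ i)⁻¹) (x ^ (i + m) * u * (x ^ (i + m))⁻¹) := by
      intro i m
      have := (hpair m).map (MulAut.conj (x ^ i)).toMonoidHom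
      simp only [MulEquiv.coe_toMonoidHom, MulAut.conj_apply] at this
      rw [show x ^ (i + m) * u * (x ^ (i + m))⁻¹ = x ^ i * (x ^ m * u * (x ^ m)⁻¹) * (x ^ i)⁻¹ by
        rw [pow_add]; group]
      exact this
    rintro _ ⟨i, rfl⟩ _ ⟨j, rfl⟩
    rcases le_total i j with h | h
    · obtain ⟨m, rfl⟩ := Nat.exists_eq_add_of_le h
      exact key i m
    · obtain ⟨m, rfl⟩ := Nat.exists_eq_add_of_le h
      exact (key j m).symm
  have hxR : x ∈ normalizer (R : Set G) := by
    have hsub : R ≤ R.comap (MulAut.conj x).toMonoidHom := (closure_le _).2 (by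
      rintro _ ⟨i, rfl⟩
      refine subset_closure ⟨i + 1, ?_⟩
      rw [MulEquiv.coe_toMonoidHom, MulAut.conj_apply, pow_succ']
      group)
    have hin : ∀ i : ℕ, ∀ w ∈ R, x ^ i * w * (x ^ i)⁻¹ ∈ R := by
      intro i
      induction i with
      | zero => intro w hw; simpa using hw
      | succ i ih =>
        intro w hw
        rw [show x ^ (i + 1) * w * (x ^ (i + 1))⁻¹ = x * (x ^ i * w * (x ^ i)⁻¹) * x⁻¹ by rw [pow_succ']; group]
        exact hsub (ih w hw)
    refine mem_normalizer_iff.2 fun w => ⟨fun hw => hsub hw, fun hw => ?_⟩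
    have h9 := hin (p ^ e - 1) _ hw
    have hxe : x ^ (p ^ e - 1) = x⁻¹ := eq_inv_of_mul_eq_one_left (by
      rw [← pow_succ, Nat.sub_add_cancel (Nat.one_le_pow _ _ hp.pos), hx.1])
    rw [hxe] at h9
    simpa [mul_assoc] using h9
  have hτu : τ * u * τ⁻¹ = u := by
    have h := centralizes_abelian hinj he hx (R := R) (Subgroup.isMulCommutative_closure hTcomm)
      (hCcop.coprime_dvd_left (card_dvd_of_le hRC)) hxR
    rw [mem_centralizer_iff] at h
    rw [← hτdef] at h
    rw [← h u (subset_closure ⟨0, by simp⟩), mul_inv_cancel_right]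
  obtain ⟨h₀, hh₀, hh₀n⟩ : ∃ h ∈ H, τ * h * τ⁻¹ ∉ H := by push_neg at hfix; exact hfix
  obtain ⟨h₁, hh₁, i, hi⟩ := hBel _ ((mem_normalizer_iff.1 hτB h₀).1 (hHB hh₀))
  have hpi : ¬ p ∣ i := by
    rintro ⟨t, rfl⟩
    rw [pow_mul, hBexp a ha, one_pow, mul_one] at hi
    exact hh₀n (hi ▸ hh₁)
  have hua : ∀ y ∈ H ⊔ zpowers a, Commute y u := by
    have hH : ∀ h ∈ H, Commute h u := fun h hh => mem_centralizer_iff.1 huD.2 h hh
    have hai : Commute (a ^ i) u := by
      have h10 : Commute (τ * h₀ * τ⁻¹) u := by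
        have := (hH h₀ hh₀).map (MulAut.conj τ).toMonoidHom
        simpa only [MulEquiv.coe_toMonoidHom, MulAut.conj_apply, hτu] using this
      rw [show a ^ i = h₁⁻¹ * (τ * h₀ * τ⁻¹) by rw [hi]; group]
      exact (hH h₁ hh₁).inv_left.mul_left h10
    obtain ⟨t, ht⟩ := exists_pow_eq_self_of_coprime (x := a) (n := i)
      (Nat.Coprime.coprime_dvd_right (orderOf_dvd_of_pow_eq_one (hBexp a ha))
        ((hp.coprime_iff_not_dvd.2 hpi).symm))
    have hau : Commute a u := ht ▸ hai.pow_left t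
    intro y hy
    have hle : H ⊔ zpowers a ≤ centralizer ({u} : Set G) := sup_le
      (fun h hh => mem_centralizer_singleton_iff.2 (hH h hh))
      (zpowers_le.2 (mem_centralizer_singleton_iff.2 hau))
    exact mem_centralizer_singleton_iff.1 (hle hy)
  have hgu : Commute g u := hua g (hHa.symm ▸ hg)
  have hpow : ∀ n : ℕ, g ^ n * k * (g ^ n)⁻¹ = u ^ n * k := by
    intro n
    induction n with
    | zero => simp
    | succ n ih =>
      calc g ^ (n + 1) * k * (g ^ (n + 1))⁻¹ = g * (g ^ n * k * (g ^ n)⁻¹) * g⁻¹ := by rw [pow_succ']; group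
        _ = g * u ^ n * k * g⁻¹ := by rw [ih]; group
        _ = u ^ n * (g * k * g⁻¹) := by rw [(hgu.pow_right n).eq]; group
        _ = u ^ (n + 1) * k := by rw [pow_succ, hu]; group
  have hup : u ^ p = 1 := by
    have := hpow p
    rwa [hBexp g hg, one_mul, inv_one, mul_one, right_eq_mul] at this
  have hord : orderOf u = 1 := Nat.eq_one_of_dvd_coprimes hCcop
    (Subgroup.orderOf_dvd_natCard C huD.1) (orderOf_dvd_of_pow_eq_one hup)
  exact orderOf_eq_one_iff.1 hord

/-- An exceptional element centralizes modulo commutators: the final commutation lemma. -/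
theorem commute_pow (hinj : Function.Injective ρ) (hsol : IsPSolvable p G) (hO : pCore p G = ⊥)
    {e : ℕ} (he : 1 ≤ e) {S : Subgroup G} (hS : IsPGroup p S) (hexc : ∀ x ∈ S, IsExc p e ρ x) :
    ∀ x ∈ S, ∀ y ∈ S, Commute (x ^ p ^ (e - 1)) (y ^ p ^ (e - 1)) := by
  classical
  have hp : p.Prime := Fact.out
  suffices key : ∀ N : ℕ, ∀ x ∈ S, ∀ y ∈ S, Nat.card (closure ({x, y} : Set G)) = N →
      Commute (x ^ p ^ (e - 1)) (y ^ p ^ (e - 1)) from fun x hx y hy => key _ x hx y hy rfl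
  intro N
  induction N using Nat.strong_induction_on with
  | _ N ih =>
  intro x hx y hy hN
  set P := closure ({x, y} : Set G) with hPdef
  have hxP : x ∈ P := subset_closure (Set.mem_insert _ _)
  have hyP : y ∈ P := subset_closure (Set.mem_insert_of_mem _ rfl)
  have hPS : P ≤ S := (closure_le _).2 (by rintro w (rfl | rfl) <;> assumption)
  by_cases htop : P ≤ zpowers y
  · obtain ⟨i, rfl⟩ := htop hxP
    exact (((Commute.refl y).zpow_left i).pow_left _).pow_right _
  haveI : Group.IsNilpotent P := (hS.to_le hPS).isNilpotent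
  obtain ⟨M, hM, hyM⟩ := (eq_top_or_exists_le_coatom (zpowers (⟨y, hyP⟩ : P))).resolve_left (by
    intro h
    refine htop fun w hw => ?_
    obtain ⟨i, hi⟩ := (h ▸ mem_top _ : (⟨w, hw⟩ : P) ∈ zpowers (⟨y, hyP⟩ : P))
    exact ⟨i, congrArg Subtype.val hi⟩)
  haveI : M.Normal := (Group.normalizerCondition_of_isNilpotent (G := P)).normal_of_coatom M hM
  have hMlt : Nat.card (M.map P.subtype) < N := by
    refine hN ▸ lt_of_le_of_ne (card_le_of_le (map_subtype_le M)) fun h => hM.1 ?_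
    rw [Subgroup.card_map_of_injective P.subtype_injective] at h
    exact Subgroup.eq_top_of_card_eq M h
  set T := {w | ∃ g ∈ P, w = g * y ^ p ^ (e - 1) * g⁻¹} with hTdef
  have hTcomm : ∀ w ∈ T, ∀ w' ∈ T, w * w' = w' * w := by
    rintro _ ⟨g, hg, rfl⟩ _ ⟨g', hg', rfl⟩
    have hmem : ∀ g ∈ P, g * y * g⁻¹ ∈ M.map P.subtype := fun g hg =>
      ⟨⟨g, hg⟩ * ⟨y, hyP⟩ * (⟨g, hg⟩ : P)⁻¹, Subgroup.Normal.conj_mem inferInstance _
        (zpowers_le.1 hyM) _, rfl⟩
    have hle : closure ({g * y * g⁻¹, g' * y * g'⁻¹} : Set G) ≤ M.map P.subtype :=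
      (closure_le _).2 (by rintro w (rfl | rfl); exacts [hmem g hg, hmem g' hg'])
    have hcj : ∀ {g}, g ∈ P → g * y * g⁻¹ ∈ S := fun hg => mul_mem (mul_mem (hPS hg) hy) (inv_mem (hPS hg))
    have := ih _ (lt_of_le_of_lt (card_le_of_le hle) hMlt) _ (hcj hg) _ (hcj hg') rfl
    rwa [conj_pow, conj_pow] at this
  set B := closure T with hB
  have hBcomm : IsMulCommutative B := Subgroup.isMulCommutative_closure hTcomm
  have hyp : (y ^ p ^ (e - 1)) ^ p = 1 := by
    rw [← pow_mul, ← pow_succ, Nat.sub_add_cancel he, (hexc y hy).1]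
  have hBexp : ∀ b ∈ B, b ^ p = 1 := by
    intro b hb
    induction hb using Subgroup.closure_induction with
    | mem w hw => obtain ⟨g, -, rfl⟩ := hw; rw [conj_pow, hyp, mul_one, mul_inv_cancel]
    | one => exact one_pow _
    | mul a c ha hc iha ihc =>
      rw [(show Commute a c from congrArg Subtype.val (hBcomm.is_comm.comm (⟨a, ha⟩ : B) ⟨c, hc⟩)).mul_pow,
        iha, ihc, one_mul]
    | inv a _ iha => rw [inv_pow, iha, inv_one]
  have hBP : B ≤ P := (closure_le _).2 (by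
    rintro _ ⟨g, hg, rfl⟩
    exact mul_mem (mul_mem hg (pow_mem hyP _)) (inv_mem hg))
  have hxB : x ∈ normalizer (B : Set G) := by
    have hsub : ∀ g ∈ P, B ≤ B.comap (MulAut.conj g).toMonoidHom := fun g hg => (closure_le _).2 (by
      rintro _ ⟨g', hg', rfl⟩
      refine subset_closure ⟨g * g', mul_mem hg hg', ?_⟩
      rw [MulEquiv.coe_toMonoidHom, MulAut.conj_apply]
      group)
    refine mem_normalizer_iff.2 fun w => ⟨fun hw => hsub x hxP hw, fun hw => ?_⟩
    have h := hsub x⁻¹ (inv_mem hxP) hw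
    simpa [mul_assoc] using h
  set b := y ^ p ^ (e - 1) with hb
  have hbB : b ∈ B := subset_closure ⟨1, one_mem _, by rw [one_mul, inv_one, mul_one]⟩
  set c := ⁅x ^ p ^ (e - 1), b⁆ with hc
  suffices hc1 : c = 1 from commutatorElement_eq_one_iff_mul_comm.1 hc1
  have hcP : c ∈ P := by
    rw [hc, commutatorElement_def]
    exact mul_mem (mul_mem (mul_mem (pow_mem hxP _) (pow_mem hyP _)) (inv_mem (pow_mem hxP _)))
      (inv_mem (pow_mem hyP _))
  set K := pPrimeCore p G with hK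
  haveI : K.Characteristic := PSolv.pPrimeCore_characteristic p G
  have hKcop : (Nat.card K).Coprime p := PSolv.coprime_card_pPrimeCore p G
  obtain ⟨k, hk⟩ := IsPGroup.iff_card.1 hS
  suffices hcK : c ∈ centralizer (K : Set G) by
    have h1 : c ∈ K := PSolv.centralizer_pPrimeCore_le hsol hO hcK
    exact orderOf_eq_one_iff.1 (Nat.eq_one_of_dvd_coprimes (hKcop.pow_right k)
      (Subgroup.orderOf_dvd_natCard K h1) (hk ▸ Subgroup.orderOf_dvd_natCard S (hPS hcP)))
  set D := K ⊓ centralizer ({c} : Set G) with hD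
  suffices hdvd : Nat.card K ∣ Nat.card D by
    have heq : D = K := Subgroup.eq_of_le_of_card_ge inf_le_left (Nat.le_of_dvd Nat.card_pos hdvd)
    refine mem_centralizer_iff.2 fun w hw => ?_
    exact mem_centralizer_singleton_iff.1 ((heq.ge hw).2)
  rw [Nat.dvd_iff_prime_pow_dvd_dvd]
  intro r n hr hrn
  haveI := Fact.mk hr
  by_cases hn : n = 0
  · simp [hn]
  have hrp : r ≠ p := by
    rintro rfl
    exact hp.coprime_iff_not_dvd.1 hKcop.symm ((dvd_pow_self r hn).trans hrn)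
  have hSK : S ≤ normalizer (K : Set G) := by rw [Subgroup.normalizer_eq_top]; exact le_top
  have hcop : (Nat.card S).Coprime (Nat.card K) := by rw [hk]; exact hKcop.symm.pow_left k
  obtain ⟨R₀, hSR⟩ := Coprime.exists_invariant_sylow r hSK hcop (Or.inl (by
    haveI := hS.isNilpotent; infer_instance))
  set R := (R₀ : Subgroup K).map K.subtype with hR
  have hRr : IsPGroup r R := R₀.isPGroup'.map _
  have hRK : R ≤ K := map_subtype_le _
  refine (show r ^ n ∣ Nat.card R from ?_).trans (card_dvd_of_le (le_inf hRK ?_))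
  · rw [hR, Subgroup.card_map_of_injective K.subtype_injective]
    exact R₀.pow_dvd_card_of_pow_dvd_card hrn
  -- `c` centralizes `R`
  obtain ⟨C₀, hC₀⟩ := PGroup.exists_isCriticalSubgroup hRr
  haveI := hC₀.characteristic
  set C := C₀.map R.subtype with hC
  have hnorm : ∀ g ∈ normalizer (R : Set G), g ∈ normalizer (C : Set G) := by
    intro g hg
    have hsub : ∀ g ∈ normalizer (R : Set G), ∀ w ∈ C, g * w * g⁻¹ ∈ C := by
      rintro g hg _ ⟨w, hw, rfl⟩
      have hfx := Subgroup.Characteristic.fixed (H := C₀) inferInstance (R.normalizerMonoidHom ⟨g, hg⟩)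
      refine ⟨R.normalizerMonoidHom ⟨g, hg⟩ w, ?_, rfl⟩
      rw [← hfx] at hw
      exact hw
    refine mem_normalizer_iff.2 fun w => ⟨hsub g hg w, fun hw => ?_⟩
    have := hsub g⁻¹ (inv_mem hg) _ hw
    simpa [mul_assoc] using this
  have hCcop : (Nat.card C).Coprime p :=
    hKcop.coprime_dvd_left (card_dvd_of_le ((map_subtype_le _).trans hRK))
  have hcls : ∀ a ∈ C, ∀ a' ∈ C, ∀ w ∈ C, Commute ⁅a, a'⁆ w := by
    rintro _ ⟨a, ha, rfl⟩ _ ⟨a', ha', rfl⟩ _ ⟨w, hw, rfl⟩
    rw [← map_commutatorElement]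
    exact Commute.map (show Commute ⁅a, a'⁆ w from (Subgroup.mem_centralizer_iff.1
      (hC₀.commutator_le (Subgroup.commutator_mem_commutator ha (mem_top a'))) w hw).symm) R.subtype
  have hBZ : ∀ b' ∈ B, ∀ z ∈ C, (∀ w ∈ C, Commute z w) → Commute b' z := by
    set Z := C ⊓ centralizer (C : Set G) with hZ
    have hnZ : ∀ g ∈ normalizer (C : Set G), g ∈ normalizer (Z : Set G) := by
      intro g hg
      have hsub : ∀ g ∈ normalizer (C : Set G), ∀ w ∈ Z, g * w * g⁻¹ ∈ Z := by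
        intro g hg w hw
        refine ⟨(mem_normalizer_iff.1 hg w).1 hw.1, mem_centralizer_iff.2 fun d hd => ?_⟩
        have hd' : g⁻¹ * d * g ∈ C := (mem_normalizer_iff.1 hg _).2 (by simpa [mul_assoc] using hd)
        have := mem_centralizer_iff.1 hw.2 _ hd'
        calc d * (g * w * g⁻¹) = g * (g⁻¹ * d * g * w) * g⁻¹ := by group
          _ = g * (w * (g⁻¹ * d * g)) * g⁻¹ := by rw [this]
          _ = _ := by group
      refine mem_normalizer_iff.2 fun w => ⟨hsub g hg w, fun hw => ?_⟩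
      have := hsub g⁻¹ (inv_mem hg) _ hw
      simpa [mul_assoc] using this
    have hBle : B ≤ centralizer (Z : Set G) := (closure_le _).2 (by
      rintro _ ⟨g, hg, rfl⟩
      have hgS : g * y * g⁻¹ ∈ S := mul_mem (mul_mem (hPS hg) hy) (inv_mem (hPS hg))
      rw [SetLike.mem_coe, ← conj_pow]
      refine centralizes_abelian hinj he (hexc _ hgS) ⟨⟨fun u v => Subtype.ext
        (mem_centralizer_iff.1 v.2.2 u u.2.1)⟩⟩ (hCcop.coprime_dvd_left (card_dvd_of_le inf_le_left))
        (hnZ _ (hnorm _ (hSR hgS))))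
    intro b' hb' z hz hzc
    exact (mem_centralizer_iff.1 (hBle hb') z ⟨hz, mem_centralizer_iff.2 fun w hw => (hzc w hw).eq.symm⟩).symm
  have hcC := commutator_mem_centralizer hinj he (hexc x hx) hCcop hcls hBcomm hBexp
    (hnorm x (hSR hx)) (fun w hw => hnorm w (hSR (hPS (hBP hw)))) hxB hBZ hbB
  rw [← hc] at hcC
  have hcN : c ∈ normalizer (R : Set G) := hSR (hPS hcP)
  set α := R.normalizerMonoidHom ⟨c, hcN⟩ with hα
  have hα1 : α = 1 := by
    refine hC₀.mulAut_eq_one hRr α ?_ fun w hw => Subtype.ext ?_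
    · refine Nat.Coprime.coprime_dvd_left ((orderOf_map_dvd _ _).trans ?_)
        (((Nat.coprime_primes hp hr).2 hrp.symm).pow_left k)
      rw [← Subgroup.orderOf_coe, ← hk]
      exact Subgroup.orderOf_dvd_natCard S (hPS hcP)
    · show c * (w : G) * c⁻¹ = w
      rw [← mem_centralizer_iff.1 hcC w ⟨w, hw, rfl⟩, mul_inv_cancel_right]
  intro w hw
  refine mem_centralizer_singleton_iff.2 ?_
  have h : c * w * c⁻¹ = w := congrArg Subtype.val (DFunLike.congr_fun hα1 (⟨w, hw⟩ : R))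
  exact (mul_inv_eq_iff_eq_mul.1 h).symm

end Cfsg.Agent.HHTwo
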