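import Cfsg.Agent.HHTwo.Commute

/-!
# Hall–Higman: the `p`-length is at most twice the exponent
-/

set_option autoImplicit false

namespace Cfsg.Agent.HHTwo

open scoped commutatorElement
open Subgroup Cfsg

variable {p : ℕ} [Fact p.Prime]

/-- In a module subgroup of a group of exponent `p ^ e` the norms vanish. -/
theorem sub_one_pow_of_exponent {X : Type*} [Group X] [Finite X] {W : Subgroup X} [W.Normal]
    (hV : HH.IsModuleSubgroup p W) {e : ℕ}
    (hexp : ∀ y : X, (∃ j, orderOf y = p ^ j) → y ^ p ^ e = 1)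
    {ρ : (X ⧸ W) →* Module.End (ZMod p) (HH.Mod hV)}
    (hρ : ∀ (x : X) (v : HH.Mod hV), (ρ (x : X ⧸ W) v).val = x * v.val * x⁻¹) {z : X}
    (hz : ∃ j, orderOf z = p ^ j) : (ρ (z : X ⧸ W) - 1) ^ (p ^ e - 1) = 0 := by
  have hpoly := congrArg (Polynomial.aeval (ρ (z : X ⧸ W))) (HH.sub_one_pow_pred (F := ZMod p) p e)
  simp only [map_pow, map_sub, Polynomial.aeval_X, map_one, map_sum] at hpoly
  rw [hpoly]
  refine LinearMap.ext fun v => ?_
  by_contra hne
  obtain ⟨y, hy, hy1, -⟩ := HH.exists_pow_ne_one hV (x := z) (m := e)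
    (by rw [hexp z hz]; exact one_mem _) (v := v.val) v.val_mem (fun h1 => hne (by
      rw [LinearMap.sum_apply, LinearMap.zero_apply]
      apply HH.Mod.ext
      rw [HH.Mod.val_sum, HH.Mod.val_zero]
      refine Eq.trans ?_ h1
      congr 1
      refine List.map_congr_left fun k _ => ?_
      rw [← map_pow, ← QuotientGroup.mk_pow, hρ]))
  exact hy1 (hexp y hy)

set_option maxHeartbeats 800000 in
/-- In a `p`-soluble linear group with `O_p = 1` without free summands of length `p ^ e` the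
`p ^ (e - 1)`-th powers of `p`-elements lie in `O_{p',p}`. -/
theorem pow_mem_pPrimePCore {G : Type*} [Group G] [Finite G] {F : Type*} [Field F] [CharP F p]
    {V : Type*} [AddCommGroup V] [Module F V] [FiniteDimensional F V] {ρ : G →* Module.End F V}
    (hinj : Function.Injective ρ) (hp2 : p ≠ 2) (hsol : IsPSolvable p G) (hO : pCore p G = ⊥) {e : ℕ}
    (he : 1 ≤ e) (hall : ∀ g : G, (∃ i, orderOf g = p ^ i) → IsExc p e ρ g)
    {x : G} (hx : ∃ i, orderOf x = p ^ i) : x ^ p ^ (e - 1) ∈ pPrimePCore p G := by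
  classical
  have hp : p.Prime := Fact.out
  set h := p ^ (e - 1) with hh
  set O := pPrimeCore p G with hOdef
  set f := QuotientGroup.mk' O with hf
  have hfs : Function.Surjective f := QuotientGroup.mk'_surjective O
  set P3 := pCore p (G ⧸ O) with hP3
  show f (x ^ h) ∈ P3
  obtain ⟨F2, hF2n, hF2P, hVexp, hVcomm, hC, hcore⟩ := S3788.exists_reduction
    (PSolv.isPSolvable_quotient hsol O) (PSolv.pPrimeCore_quotient_eq_bot p G)
  set π := QuotientGroup.mk' F2 with hπ
  have hπs : Function.Surjective π := QuotientGroup.mk'_surjective F2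
  set V3 := P3.map π with hV3
  haveI hPn : P3.Normal := by haveI := PSolv.pCore_characteristic p (G ⧸ O); infer_instance
  haveI : V3.Normal := hPn.map π hπs
  have hO3 : pCore p (((G ⧸ O) ⧸ F2) ⧸ V3) = ⊥ := by
    have key : ∀ W : Subgroup ((G ⧸ O) ⧸ F2), W = pCore p ((G ⧸ O) ⧸ F2) → ∀ [W.Normal],
        pCore p (((G ⧸ O) ⧸ F2) ⧸ W) = ⊥ := by
      rintro W rfl _; exact PSolv.pCore_quotient_eq_bot p _
    exact key V3 hcore
  have hMod : HH.IsModuleSubgroup p V3 :=
    ⟨⟨⟨fun a b => Subtype.ext (hVcomm a a.2 b b.2)⟩⟩, hVexp⟩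
  obtain ⟨ρ3, hρ3⟩ := HH.exists_conjRep hMod
  haveI : Module.Finite (ZMod p) (HH.Mod hMod) := Module.Finite.of_finite
  set φ := π.comp f with hφ
  set xb : ((G ⧸ O) ⧸ F2) ⧸ V3 := QuotientGroup.mk' V3 (φ x) with hxb
  by_cases hone : xb ^ h = 1
  · rw [hxb, ← map_pow, ← map_pow] at hone
    obtain ⟨a, ha, haz⟩ := (QuotientGroup.eq_one_iff _).1 hone
    have h1 : a⁻¹ * f (x ^ h) ∈ F2 := QuotientGroup.eq.1 haz
    have := mul_mem ha (hF2P h1)
    rwa [mul_inv_cancel_left] at this
  exfalso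
  -- the order of `xb` is `p ^ e`
  have hxe : x ^ p ^ e = 1 := (hall x hx).1
  have hord : orderOf xb = p ^ e := by
    obtain ⟨n, rfl⟩ : ∃ n, e = n + 1 := ⟨e - 1, by omega⟩
    refine orderOf_eq_prime_pow ?_ ?_
    · simpa [hh] using hone
    · rw [hxb, ← map_pow, ← map_pow, hxe, map_one, map_one]
  obtain ⟨i, hi⟩ := hx
  obtain ⟨S, hS⟩ := (IsPGroup.iff_card (p := p) (G := zpowers x)).2
    ⟨i, by rw [Nat.card_zpowers, hi]⟩ |>.exists_le_sylow
  have hxS : x ∈ (S : Subgroup G) := hS (mem_zpowers x)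
  have hexc : ∀ g ∈ (S : Subgroup G), IsExc p e ρ g := fun g hg => by
    obtain ⟨j, hj⟩ := IsPGroup.iff_card.1 S.isPGroup'
    obtain ⟨k, -, hk⟩ := (Nat.dvd_prime_pow hp).1 (hj ▸ Subgroup.orderOf_dvd_natCard _ hg)
    exact hall g ⟨k, hk⟩
  have hcomm := commute_pow hinj hsol hO he S.isPGroup' hexc
  -- the polynomial identities
  have h2p : h * 2 - 1 = h + (h - 1) := by
    have := Nat.one_le_pow (e - 1) p hp.pos
    omega
  have hP1 : (ρ3 xb - 1) ^ h = ρ3 xb ^ h - 1 := by
    have : ((Polynomial.X : Polynomial (ZMod p)) - 1) ^ h = Polynomial.X ^ h - 1 := by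
      rw [hh, sub_pow_char_pow, one_pow]
    simpa using congrArg (Polynomial.aeval (ρ3 xb)) this
  have hP2 : (ρ3 xb - 1) ^ (h - 1) = ∑ i ∈ Finset.range h, ρ3 xb ^ i := by
    simpa [hh] using congrArg (Polynomial.aeval (ρ3 xb)) (HH.sub_one_pow_pred (F := ZMod p) p (e - 1))
  have hdeg : (ρ3 xb - 1) ^ (h * 2 - 1) = 0 := by
    rw [h2p, pow_add, hP1, hP2]
    refine LinearMap.ext fun v => ?_
    rw [LinearMap.zero_apply, Module.End.mul_apply]
    obtain ⟨a, ha, hav⟩ := (v.val_mem : v.val ∈ P3.map π)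
    obtain ⟨u, hu, hua⟩ : a ∈ (S : Subgroup G).map f :=
      PSolv.pCore_le_sylow (S.mapSurjective hfs) ha
    have hφu : φ u = v.val := by rw [hφ, MonoidHom.comp_apply, hua, hav]
    have hc := (hcomm (u * x) (mul_mem hu hxS) x hxS).map φ
    rw [map_pow, map_pow, map_mul, hφu, HH.mul_pow_eq_norm] at hc
    set N := ((List.range h).map fun i => φ x ^ i * v.val * (φ x ^ i)⁻¹).prod with hN
    have hNX : Commute N (φ x ^ h) := by
      have := hc.mul_left ((Commute.refl (φ x ^ h)).inv_left)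
      rwa [mul_inv_cancel_right] at this
    have hsum : (((∑ i ∈ Finset.range h, ρ3 xb ^ i) v) : HH.Mod hMod).val = N := by
      rw [LinearMap.sum_apply, HH.Mod.val_sum, hN]
      congr 1
      refine List.map_congr_left fun k _ => ?_
      rw [← map_pow, hxb, QuotientGroup.mk'_apply, ← QuotientGroup.mk_pow, hρ3]
    rw [LinearMap.sub_apply, Module.End.one_apply, sub_eq_zero]
    apply HH.Mod.ext
    rw [← map_pow, hxb, QuotientGroup.mk'_apply, ← QuotientGroup.mk_pow, hρ3, ← QuotientGroup.mk'_apply V3 (φ x),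
      ← hxb, hsum, hNX.symm.eq, mul_inv_cancel_right]
  have hsol3 : IsPSolvable p (((G ⧸ O) ⧸ F2) ⧸ V3) :=
    PSolv.isPSolvable_quotient (PSolv.isPSolvable_quotient (PSolv.isPSolvable_quotient hsol O) F2) V3
  have hp3 : 3 ≤ p := by have := hp.two_le; omega
  have hhpos : 1 ≤ h := Nat.one_le_pow _ _ hp.pos
  have hhe : h * p = p ^ e := by rw [hh, ← pow_succ, Nat.sub_add_cancel he]
  rcases HH.theoremB_of_pCore_eq_bot hsol3 hO3 ρ3 (HH.conjRep_injective hC hρ3) he hord hdeg with
    hle | ⟨n₀, q, m, hn1, hn2, -, -, -, -, hk⟩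
  · have : h * 3 ≤ h * p := Nat.mul_le_mul_left h hp3
    omega
  · rw [Nat.mul_sub, mul_one, ← pow_add, Nat.sub_add_cancel hn2] at hk
    have h1 : p ^ (e - n₀) ≤ h := Nat.pow_le_pow_right hp.pos (by omega)
    have : h * 3 ≤ h * p := Nat.mul_le_mul_left h hp3
    omega

set_option maxHeartbeats 800000 in
/-- **Hall–Higman**: for odd `p` the `p`-length is at most twice the exponent. -/
theorem pLengthLE_two_mul (hp2 : p ≠ 2) : ∀ (e : ℕ) (G : Type*) [Group G] [Finite G], IsPSolvable p G →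
    (∀ x : G, (∃ j, orderOf x = p ^ j) → x ^ p ^ e = 1) → PLengthLE p (2 * e) G := by
  have hp : p.Prime := Fact.out
  intro e
  induction e with
  | zero =>
    intro G _ _ _ hexp
    refine PLength.pLengthLE_zero_of_coprime ((Nat.Prime.coprime_iff_not_dvd hp).2 (fun h => ?_)).symm
    obtain ⟨x, hx⟩ := exists_prime_orderOf_dvd_card' p h
    have := hexp x ⟨1, by rw [hx, pow_one]⟩
    rw [pow_zero, pow_one] at this
    rw [this, orderOf_one] at hx
    exact hp.one_lt.ne hx
  | succ e ih =>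
    intro G _ _ hG hexp
    set N := pPrimeCore p G with hN
    have hG' := PSolv.isPSolvable_quotient hG N
    have hexp' : ∀ x : G ⧸ N, (∃ j, orderOf x = p ^ j) → x ^ p ^ (e + 1) = 1 := by
      rintro x ⟨j, hj⟩
      obtain ⟨y, hy, hyj⟩ := Element.exists_pElement_preimage hp (QuotientGroup.mk' N)
        (QuotientGroup.mk'_surjective N) hj
      rw [← hy, ← map_pow, hexp y hyj, map_one]
    obtain ⟨F, hFn, hFP, hVexp, hVcomm, hC, hcore⟩ := S3788.exists_reduction hG'
      (PSolv.pPrimeCore_quotient_eq_bot p G)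
    set P := pCore p (G ⧸ N) with hP
    set π := QuotientGroup.mk' F with hπ
    have hπs : Function.Surjective π := QuotientGroup.mk'_surjective F
    set V := P.map π with hV
    haveI hPn : P.Normal := by haveI := PSolv.pCore_characteristic p (G ⧸ N); infer_instance
    haveI : V.Normal := hPn.map π hπs
    have hMod : HH.IsModuleSubgroup p V :=
      ⟨⟨⟨fun a b => Subtype.ext (hVcomm a a.2 b b.2)⟩⟩, hVexp⟩
    have hexpX : ∀ y : (G ⧸ N) ⧸ F, (∃ j, orderOf y = p ^ j) → y ^ p ^ (e + 1) = 1 := by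
      rintro y ⟨j, hj⟩
      obtain ⟨z, hz, hzj⟩ := Element.exists_pElement_preimage hp π hπs hj
      rw [← hz, ← map_pow, hexp' z hzj, map_one]
    set φ := (QuotientGroup.mk' V).comp π with hφ
    have hker : φ.ker = P := by
      rw [hφ, ← MonoidHom.comap_ker, QuotientGroup.ker_mk', hV, Subgroup.comap_map_eq,
        QuotientGroup.ker_mk', sup_eq_left]
      exact hFP
    set ψ : (G ⧸ N) ⧸ P →* ((G ⧸ N) ⧸ F) ⧸ V := QuotientGroup.lift P φ hker.ge with hψ
    have hψi : Function.Injective ψ := by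
      rw [injective_iff_map_eq_one]
      intro a
      induction a using QuotientGroup.induction_on with
      | H a => intro ha; exact (QuotientGroup.eq_one_iff a).2 (hker.le ha)
    obtain ⟨ρ, hρ⟩ := HH.exists_conjRep hMod
    haveI : Module.Finite (ZMod p) (HH.Mod hMod) := Module.Finite.of_finite
    set ρ2 : (G ⧸ N) ⧸ P →* Module.End (ZMod p) (HH.Mod hMod) := ρ.comp ψ with hρ2
    have hinj : Function.Injective ρ2 := (HH.conjRep_injective hC hρ).comp hψi
    have hall : ∀ g : (G ⧸ N) ⧸ P, (∃ i, orderOf g = p ^ i) → IsExc p (e + 1) ρ2 g := by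
      rintro g ⟨i, hi⟩
      obtain ⟨z, hz, hzj⟩ := Element.exists_pElement_preimage hp (QuotientGroup.mk' V)
        (QuotientGroup.mk'_surjective V) (show orderOf (ψ g) = p ^ i by rw [orderOf_injective ψ hψi, hi])
      refine ⟨hψi (by rw [map_pow, map_one, ← hz, ← map_pow, hexpX z hzj, map_one]), ?_⟩
      rw [hρ2, MonoidHom.comp_apply, ← hz, QuotientGroup.mk'_apply]
      exact sub_one_pow_of_exponent hMod hexpX hρ hzj
    have hsol2 := PSolv.isPSolvable_quotient hG' P
    set O := pPrimeCore p ((G ⧸ N) ⧸ P) with hO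
    set P3 := pCore p (((G ⧸ N) ⧸ P) ⧸ O) with hP3
    haveI : P3.Normal := by haveI := PSolv.pCore_characteristic p (((G ⧸ N) ⧸ P) ⧸ O); infer_instance
    set f := (QuotientGroup.mk' P3).comp (QuotientGroup.mk' O) with hf
    have hfs : Function.Surjective f :=
      (QuotientGroup.mk'_surjective P3).comp (QuotientGroup.mk'_surjective O)
    have hexp3 : ∀ z : (((G ⧸ N) ⧸ P) ⧸ O) ⧸ P3, (∃ j, orderOf z = p ^ j) → z ^ p ^ e = 1 := by
      rintro z ⟨j, hj⟩
      obtain ⟨y, hy, hyj⟩ := Element.exists_pElement_preimage hp f hfs hj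
      rw [← hy, ← map_pow]
      have hmem := pow_mem_pPrimePCore hinj hp2 hsol2 (PSolv.pCore_quotient_eq_bot p (G ⧸ N))
        (Nat.le_add_left 1 e) hall (x := y) hyj
      rw [Nat.add_sub_cancel] at hmem
      exact (QuotientGroup.eq_one_iff _).2 hmem
    have h3 := ih _ (PSolv.isPSolvable_quotient (PSolv.isPSolvable_quotient hsol2 O) P3) hexp3
    have h4 : PLengthLE p (1 + 2 * e) (((G ⧸ N) ⧸ P) ⧸ O) :=
      PLength.pLengthLE_add P3 (PLength.pLengthLE_of_isPGroup (PSolv.isPGroup_pCore p _)) h3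
    have h5 := PLength.pLengthLE_add O (a := 0)
      (PLength.pLengthLE_zero_of_coprime (PSolv.coprime_card_pPrimeCore p _)) h4
    rw [zero_add] at h5
    have h2 : PLengthLE p (1 + (1 + 2 * e)) (G ⧸ N) :=
      PLength.pLengthLE_add P (PLength.pLengthLE_of_isPGroup (PSolv.isPGroup_pCore p _)) h5
    have h6 := PLength.pLengthLE_add N (a := 0)
      (PLength.pLengthLE_zero_of_coprime (PSolv.coprime_card_pPrimeCore p G)) h2
    rwa [zero_add, show 1 + (1 + 2 * e) = 2 * (e + 1) by omega] at h6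

end Cfsg.Agent.HHTwo
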